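import Mathlib
import Cfsg.Agent.Lib.Small30.Base
import Cfsg.Agent.S0813
import Cfsg.Agent.S0254
import Cfsg.Agent.Lib.J2.U33

/-! A permutation model of `Aut(A₆)` on ten points -/

set_option autoImplicit false
set_option maxRecDepth 100000

open scoped Pointwise

namespace H30.AutA6

open H54 H30.Sm

noncomputable def c : H54.Cfg := ⟨10, 10, 4, 15, 0x9876543210,
  0x1111111111,
  0x7777777777,
  0x8888888888,
  (.cons 64 69905 20
    (.cons 65 0x10100101 4
    (.cons 66 0x101001010 4
    (.cons 67 0x10100101 4
    (.cons 104 0x101001010 4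
    (.cons 105 0x10100101 4
    (.cons 106 69905 20
    .nil)))))))⟩
theorem c_check : c.check = true := by decide +kernel

noncomputable def c1 : H54.Cfg := ⟨6, 6, 3, 7, 181896,
  37449,
  112347,
  149796,
  (.cons 64 73 9
    (.cons 65 513 3
    (.cons 66 4104 3
    (.cons 82 513 3
    (.cons 83 73 9
    .nil)))))⟩
theorem c1_check : c1.check = true := by decide +kernel

noncomputable def c2 : H54.Cfg := ⟨16, 16, 4, 15, 0xfedcba9876543210,
  0x1111111111111111,
  0x7777777777777777,
  0x8888888888888888,
  (.cons 64 0x11111111 32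
    (.cons 65 0x111100001111 16
    (.cons 66 0x11001100110011 8
    (.cons 67 0x101010101010101 4
    (.cons 128 0x11001100110011 8
    (.cons 129 0x111100001111 16
    (.cons 130 0x11111111 32
    .nil)))))))⟩
theorem c2_check : c2.check = true := by decide +kernel

noncomputable def ch_3 : H54.Chain := .nil
noncomputable def ch_t2 : H54.Tr :=
 (.node 5 (.node 2 (.leaf 0x122000010220100080000000808280002000300000006)
 (.leaf 0x112000000000300840020000482a080005000100000007))
 (.node 6 (.leaf 0x102300000023200000a60084028000006000200000005)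
 (.leaf 0x7000000000007)))
noncomputable def ch_2 : H54.Chain := .cons 7 228 ch_t2
  [0xbcadfe9852630741]
  [] ch_3
noncomputable def ch_t1 : H54.Tr :=
 (.node 4 (.node 1 (.node 0 (.leaf 0x2002000546340000080018011a400000000400000003)
 (.leaf 0x102000000024100000a08080802100001000401000003))
 (.node 2 (.leaf 0x1120114410002300080048001003080002000300000006)
 (.node 3 (.leaf 0x2020005020100482000080038400003000300000004)
 (.leaf 0x1002024455401000000a00191918400004000201000005))))
 (.node 6 (.node 5 (.leaf 0x20104445404000480a28195109100005000101000008)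
 (.leaf 0x112013401040210008204809090a400006000200000005))
 (.node 7 (.leaf 0x1002214445044000082808115918100007000301000004)
 (.node 8 (.leaf 0x8000000000008)
 (.leaf 0x112000000000300840020000482a080010000000000000)))))
noncomputable def ch_1 : H54.Chain := .cons 8 511 ch_t1
  [0xbcadfe9852630741, 0xecfdab9582471360]
  [[16]] ch_2
noncomputable def ch_t0 : H54.Tr :=
 (.node 5 (.node 2 (.node 0 (.leaf 0x122100444624208402860091013480000000200000004)
 (.node 1 (.leaf 0x22334455447408400820115931200001000201000005)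
 (.leaf 0x120300011225608000020000808000002000301000001)))
 (.node 3 (.leaf 0x1102200040265400480a08185002100003000301000008)
 (.node 4 (.leaf 0x120300450642200482a40011918300004000100000009)
 (.leaf 0x1022324015003100482a00085032480005000101000009))))
 (.node 8 (.node 6 (.leaf 0x100002001402510808080000180a100006000200000005)
 (.node 7 (.leaf 0x102114415646008400840011119000007000300000001)
 (.leaf 0x1102030000620708402048005822100008000201000004)))
 (.node 9 (.leaf 0x9000000000009)
 (.node 16 (.leaf 0x120300450642200482a40011918300010000000000000)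
 (.leaf 0x1022324015003100482a00085032480011000000000000)))))
noncomputable def ch_0 : H54.Chain := .cons 9 1023 ch_t0
  [0xfedacb4823605179, 0xbfedca5394180726]
  [[16, 16, 17, 0, 3], [7, 16, 17, 1, 17, 16, 8, 16]] ch_1
noncomputable def ch : H54.Chain := ch_0

theorem ch_low0 : H54.checkLow c2 ch_0 = true := by decide +kernel
theorem ch_low : H54.checkLow c2 ch = true := ch_low0
theorem ch_up0 : H54.checkUp c2 ch_0 = true := by decide +kernel
theorem ch_up : H54.checkUp c2 ch = true := ch_up0
theorem ch_size : ch.size c2.n = 360 := by decide +kernel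

noncomputable def chM_4 : H54.Chain := .nil
noncomputable def chM_t3 : H54.Tr :=
 (.node 2 (.leaf 0x16100004a04b480002000100000005)
 (.leaf 0x5000000000005))
noncomputable def chM_3 : H54.Chain := .cons 5 36 chM_t3
  [0x9876210543]
  [] chM_4
noncomputable def chM_t2 : H54.Tr :=
 (.node 4 (.node 1 (.node 0 (.leaf 0x124440004a4010b420000000301000006)
 (.leaf 0x405400a4a058480001000201000005))
 (.node 2 (.leaf 0x50560000204a5a0002000100000008)
 (.node 3 (.leaf 0x1212444040484a101020003000300000006)
 (.leaf 0x4004004000102000004000200000005))))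
 (.node 6 (.node 5 (.leaf 0x12404440484a111020005000101000008)
 (.leaf 0x101400a4004a400006000200000002))
 (.node 8 (.leaf 0x8000000000008)
 (.node 10 (.leaf 0x50560000204a5a000a000000000000)
 (.leaf 0x12404440484a11102000b000000000000)))))
noncomputable def chM_2 : H54.Chain := .cons 8 383 chM_t2
  [0x9273408651, 0x9570138624]
  [[11, 10, 2, 10, 3, 2]] chM_3
noncomputable def chM_t1 : H54.Tr :=
 (.node 4 (.node 1 (.node 0 (.leaf 0x10004441404840109480000000400000002)
 (.leaf 0x1240410048401094a0001000300000008))
 (.node 2 (.leaf 0x141200002048420002000300000005)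
 (.node 3 (.leaf 0x520084005b5a0003000301000005)
 (.leaf 0x10004401404842108480004000100000007))))
 (.node 7 (.node 5 (.leaf 0x10040540084804a100005000200000004)
 (.node 6 (.leaf 0x124444004a48100580006000500000000)
 (.leaf 0x7000000000007)))
 (.node 8 (.leaf 0x1044404048021194a0008000201000004)
 (.node 10 (.leaf 0x1000440140484210848000a000000000000)
 (.leaf 0x400040480010b48000b000000000000)))))
noncomputable def chM_1 : H54.Chain := .cons 7 511 chM_t1
  [0x9147258036, 0x9246381705]
  [[11, 11, 0, 10, 6, 0, 1], [10, 2, 11, 11, 11, 11, 1, 7, 6]] chM_2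
noncomputable def chM_t0 : H54.Tr :=
 (.node 5 (.node 2 (.node 0 (.leaf 0x10450040484214a420000000100000009)
 (.node 1 (.leaf 0x454120084a14b480001000401000002)
 (.leaf 0x1210444500084815a4a0002000301000007)))
 (.node 3 (.leaf 0x124005004800048400003000500000001)
 (.node 4 (.leaf 0x44440084a15a420004000200000006)
 (.leaf 0x10000040404a4204a000005000600000003))))
 (.node 8 (.node 6 (.leaf 0x10100400004840151480006000101000009)
 (.node 7 (.leaf 0x120440404a4a10a400007000201000000)
 (.leaf 0x10004540484810a480008000300000004)))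
 (.node 9 (.leaf 0x9000000000009)
 (.node 10 (.leaf 0x10450040484214a42000a000000000000)
 (.leaf 0x1010040000484015148000b000000000000)))))
noncomputable def chM_0 : H54.Chain := .cons 9 1023 chM_t0
  [0x274185936, 0x6924583107]
  [[11, 5, 11, 5, 2], [10, 3, 10, 11, 7, 8, 11, 10]] chM_1
noncomputable def chM : H54.Chain := chM_0

theorem chM_low0 : H54.checkLow c chM_0 = true := by decide +kernel
theorem chM_low : H54.checkLow c chM = true := chM_low0
theorem chM_up0 : H54.checkUp c chM_0 = true := by decide +kernel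
theorem chM_up : H54.checkUp c chM = true := chM_up0
theorem chM_size : chM.size c.n = 1440 := by decide +kernel

noncomputable def chJ_3 : H54.Chain := .nil
noncomputable def chJ_t2 : H54.Tr :=
 (.node 5 (.node 2 (.leaf 0x14000004800a480002000300000006)
 (.leaf 0x1000042049420005000100000007))
 (.node 6 (.leaf 0x1005452008480595a0006000200000005)
 (.leaf 0x7000000000007)))
noncomputable def chJ_2 : H54.Chain := .cons 7 228 chJ_t2
  [0x9852630741]
  [] chJ_3
noncomputable def chJ_t1 : H54.Tr :=
 (.node 4 (.node 1 (.node 0 (.leaf 0x445200202058420000000400000003)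
 (.leaf 0x12124044004a4a100120001000401000003))
 (.node 2 (.leaf 0x10124000404a40101400002000300000006)
 (.node 3 (.leaf 0x4000040058020003000300000004)
 (.leaf 0x100400000848050400004000201000005))))
 (.node 6 (.node 5 (.leaf 0x124004004a42108400005000101000008)
 (.leaf 0x1000440140084210a580006000200000005))
 (.node 7 (.leaf 0x10004000004a4a102500007000301000004)
 (.node 8 (.leaf 0x8000000000008)
 (.leaf 0x100004204942000a000000000000)))))
noncomputable def chJ_1 : H54.Chain := .cons 8 511 chJ_t1
  [0x9852630741, 0x9582471360]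
  [[10]] chJ_2
noncomputable def chJ_t0 : H54.Tr :=
 (.node 5 (.node 2 (.node 0 (.leaf 0x4541200a480584a0000000200000004)
 (.node 1 (.leaf 0x124525404848118480001000201000005)
 (.leaf 0x100145404a480094a0002000301000001)))
 (.node 3 (.leaf 0x40440480201b5a0003000301000008)
 (.node 4 (.leaf 0x501200a421594a0004000100000009)
 (.leaf 0x10100040404842158420005000101000009))))
 (.node 8 (.node 6 (.leaf 0x410400484a10a580006000200000005)
 (.node 7 (.leaf 0x10004444004842153500007000300000001)
 (.leaf 0x10104005604840058400008000201000004)))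
 (.node 9 (.leaf 0x9000000000009)
 (.node 10 (.leaf 0x501200a421594a000a000000000000)
 (.leaf 0x1010004040484215842000b000000000000)))))
noncomputable def chJ_0 : H54.Chain := .cons 9 1023 chJ_t0
  [0x4823605179, 0x5394180726]
  [[10, 10, 11, 0, 3], [7, 10, 11, 1, 11, 10, 8, 10]] chJ_1
noncomputable def chJ : H54.Chain := chJ_0

theorem chJ_low0 : H54.checkLow c chJ_0 = true := by decide +kernel
theorem chJ_low : H54.checkLow c chJ = true := chJ_low0
theorem chJ_up0 : H54.checkUp c chJ_0 = true := by decide +kernel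
theorem chJ_up : H54.checkUp c chJ = true := chJ_up0
theorem chJ_size : chJ.size c.n = 360 := by decide +kernel

noncomputable def ch1_4 : H54.Chain := .nil
noncomputable def ch1_t3 : H54.Tr :=
 (.node 0 (.leaf 0x4804080000000100000003)
 (.node 1 (.leaf 0x800020001000200000000)
 (.leaf 0x3000000000003)))
noncomputable def ch1_3 : H54.Chain := .cons 3 11 ch1_t3
  [180377]
  [] ch1_4
noncomputable def ch1_t2 : H54.Tr :=
 (.node 1 (.node 0 (.leaf 0x20000620000000200000003)
 (.leaf 0x84040080001000201000003))
 (.node 3 (.leaf 0x4044080003000101000005)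
 (.node 5 (.leaf 0x5000000000005)
 (.leaf 0x4804080006000000000000))))
noncomputable def ch1_2 : H54.Chain := .cons 5 43 ch1_t2
  [180377, 115368]
  [[6]] ch1_3
noncomputable def ch1_t1 : H54.Tr :=
 (.node 3 (.node 0 (.leaf 0x84844020000000300000001)
 (.node 1 (.leaf 0x24c04620001000200000005)
 (.leaf 0x4020003000101000004)))
 (.node 5 (.node 4 (.leaf 0x4000000000004)
 (.leaf 0x8400a0005000100000004))
 (.node 6 (.leaf 0x8400a0006000000000000)
 (.leaf 0x4020007000000000000))))
noncomputable def ch1_1 : H54.Chain := .cons 4 59 ch1_t1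
  [55427, 178305]
  [[6, 7, 6, 6, 3, 1], [7, 6, 6, 0, 0, 5]] ch1_2
noncomputable def ch1_t0 : H54.Tr :=
 (.node 3 (.node 1 (.node 0 (.leaf 0x220000000100000002)
 (.leaf 0x400200001000200000000))
 (.node 2 (.leaf 0x2000000000002)
 (.leaf 0x20044200003000101000002)))
 (.node 5 (.node 4 (.leaf 0xa4040000004000201000003)
 (.leaf 0x44480005000301000004))
 (.node 6 (.leaf 0x220006000000000000)
 (.leaf 0x20044200007000000000000))))
noncomputable def ch1_0 : H54.Chain := .cons 2 63 ch1_t0
  [181777, 55504]
  [[4, 7, 4, 7, 1], [5, 6, 4, 6, 7, 0, 1, 7, 4]] ch1_1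
noncomputable def ch1 : H54.Chain := ch1_0

theorem ch1_low0 : H54.checkLow c1 ch1_0 = true := by decide +kernel
theorem ch1_low : H54.checkLow c1 ch1 = true := ch1_low0
theorem ch1_up0 : H54.checkUp c1 ch1_0 = true := by decide +kernel
theorem ch1_up : H54.checkUp c1 ch1 = true := ch1_up0
theorem ch1_size : ch1.size c1.n = 360 := by decide +kernel

noncomputable def chP_3 : H54.Chain := .nil
noncomputable def chP_t2 : H54.Tr :=
 (.node 2 (.leaf 0x141200002048420002000100000007)
 (.leaf 0x7000000000007))
noncomputable def chP_2 : H54.Chain := .cons 7 132 chP_t2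
  [0x9825603714]
  [] chP_3
noncomputable def chP_t1 : H54.Tr :=
 (.node 3 (.leaf 0x10124004004842140120003000101000009)
 (.node 9 (.leaf 0x9000000000009)
 (.leaf 0x14120000204842000a000000000000)))
noncomputable def chP_1 : H54.Chain := .cons 9 520 chP_t1
  [0x9825603714, 0x3870459216]
  [[10]] chP_2
noncomputable def chP_t0 : H54.Tr :=
 (.node 5 (.node 1 (.node 0 (.leaf 0x52540004a01b480000000100000008)
 (.leaf 0x44000400001a400001000102000008))
 (.node 2 (.leaf 0x10124000404a40101400002000200000000)
 (.node 4 (.leaf 0x444000048053420004000300000002)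
 (.leaf 0x10014540484a11a480005000301000002))))
 (.node 8 (.node 6 (.leaf 0x10104440000a48048580006000200000001)
 (.node 7 (.leaf 0x10124040404a40140400007000302000002)
 (.leaf 0x8000000000008)))
 (.node 10 (.leaf 0x52540004a01b48000a000000000000)
 (.node 11 (.leaf 0x444440424a0484a000b000000000000)
 (.leaf 0x44000400001a40000c000000000000)))))
noncomputable def chP_0 : H54.Chain := .cons 8 503 chP_t0
  [0x9057813462, 0x3041279568, 0x3126549780]
  [[12, 4, 12, 1, 5, 12, 10, 12, 0], [1, 10, 2, 2, 11, 4, 11, 2]] chP_1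
noncomputable def chP : H54.Chain := chP_0

theorem chP_low0 : H54.checkLow c chP_0 = true := by decide +kernel
theorem chP_low : H54.checkLow c chP = true := chP_low0
theorem chP_up0 : H54.checkUp c chP_0 = true := by decide +kernel
theorem chP_up : H54.checkUp c chP = true := chP_up0
theorem chP_size : chP.size c.n = 32 := by decide +kernel

theorem ch1_gens : ch1.gens = [181777, 55504] := by decide +kernel
theorem chJ_gens : chJ.gens = [0x4823605179, 0x5394180726] := by decide +kernel
def L : List ℕ := [0x9825603714, 0x9210543876, 0x9174063285, 0x9786453120, 0x3041279568, 0x3467189052, 0x3658729401, 0x3502819647]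
def ja : ℕ := 0x4823605179
def jb : ℕ := 0x5394180726

theorem X : Ctx c (finPt 10) := ctx_fin (n := 10) c_check rfl
theorem X1 : Ctx c1 (finPt 6) := ctx_fin (n := 6) c1_check rfl

abbrev M : Type := grp (Equiv.Perm (Fin 10)) c (finPt 10) chM.gens

theorem goodM : Good c (finPt 10) chM (⊤ : Subgroup M) :=
  (good_of_check X (valid_perm X (by decide +kernel)) chM_low chM_up).top

theorem KM : Kfix M c (finPt 10) = ⊥ := Kfix_sub_eq_bot (Kfix_fin (n := 10) rfl) _

theorem card_M : Nat.card M = 1440 := (card_of_good_top X KM goodM).trans chM_size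

theorem vM : Valid M c (finPt 10) chM.gens :=
  valid_of_in (goodM.all_in X (S := chM.gens) (by decide +kernel))

theorem vJ : Valid M c (finPt 10) chJ.gens :=
  valid_of_in (goodM.all_in X (S := chJ.gens) (by decide +kernel))

theorem vP : Valid M c (finPt 10) chP.gens :=
  valid_of_in (goodM.all_in X (S := chP.gens) (by decide +kernel))

noncomputable abbrev J : Subgroup M := grp M c (finPt 10) chJ.gens

theorem goodJ : Good c (finPt 10) chJ J := good_of_check X vJ chJ_low chJ_up

instance normalJ : J.Normal :=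
  normal_grp X KM vM (kfix_top X vM chM_low chM_up chM_size card_M).2.1 vJ goodJ (by decide +kernel)

theorem rep_perm (g : Equiv.Perm (Fin 6)) (p : ℕ) (h : ∀ i : Fin 6, c1.get p i = (g i).val) :
    Rep c1 (finPt 6) g p := by
  intro i hi
  have := h ⟨i, hi⟩
  refine ⟨this ▸ (g _).2, ?_⟩
  rw [this, finPt_coe]
  show g (finPt 6 i) = g ⟨i, hi⟩
  congr 1
  exact Fin.ext (finPt_val hi)

theorem inA : ∀ s ∈ ch1.gens, In c1 (finPt 6) (alternatingGroup (Fin 6)) s := by
  rw [ch1_gens]
  intro s hs
  simp only [List.mem_cons, List.not_mem_nil, or_false] at hs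
  rcases hs with rfl | rfl
  · exact ⟨Equiv.swap 0 1 * Equiv.swap 1 2, by
      simp [Equiv.Perm.mem_alternatingGroup, Equiv.Perm.sign_swap'], rep_perm _ _ (by decide +kernel)⟩
  · exact ⟨Equiv.swap 1 2 * Equiv.swap 2 3 * Equiv.swap 3 4 * Equiv.swap 4 5, by
      simp [Equiv.Perm.mem_alternatingGroup, Equiv.Perm.sign_swap'], rep_perm _ _ (by decide +kernel)⟩

theorem card_A6 : Nat.card (alternatingGroup (Fin 6)) = 360 := by
  have := two_mul_nat_card_alternatingGroup (α := Fin 6)
  rw [Nat.card_perm, Nat.card_fin, show Nat.factorial 6 = 720 from rfl] at this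
  omega

theorem grpA : grp (Equiv.Perm (Fin 6)) c1 (finPt 6) ch1.gens = alternatingGroup (Fin 6) := by
  have K1 : Kfix (Equiv.Perm (Fin 6)) c1 (finPt 6) = ⊥ := Kfix_fin rfl
  apply Subgroup.eq_of_le_of_card_ge (grp_le (by rw [K1]; exact bot_le) inA)
  rw [card_A6, (good_of_check X1 (valid_of_in inA) ch1_low ch1_up).card X1 K1, ch1_size]

theorem equivJ : Nonempty (J ≃* alternatingGroup (Fin 6)) :=
  nonempty_mulEquiv X X1 c2_check KM (Kfix_fin rfl) vJ (valid_of_in inA) (ch := ch)
    (by decide +kernel) ch_low ch_up rfl grpA ch_size (by norm_num)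
    ((goodJ.card X KM).trans chJ_size) card_A6

theorem centJ : Subgroup.centralizer (J : Set M) = ⊥ := by
  rw [eq_bot_iff]
  intro g hg
  obtain ⟨p, r, h⟩ := goodM.forall_of_allElts X
    (P := fun p => bor (eqc c p c.one) (bnot (band (commutes c p ja) (commutes c p jb))))
    (by decide +kernel) g (Subgroup.mem_top g)
  obtain ⟨a, ha, ra⟩ := goodJ.in_of_memb X (x := ja) (by decide +kernel)
  obtain ⟨b, hb, rb⟩ := goodJ.in_of_memb X (x := jb) (by decide +kernel)
  simp only [bor_eq_true, bnot_eq_true, band_eq_true] at h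
  rcases h with h | h
  · exact (r.eqc_one_iff X KM).1 h
  · exact absurd ⟨(r.commutes_iff X KM ra).2 (hg a ha).symm,
      (r.commutes_iff X KM rb).2 (hg b hb).symm⟩ h

theorem key : ∃ P : Sylow 2 M, ∀ g : M, ∃ y ∈ (P : Subgroup M), y ≠ 1 ∧ g⁻¹ * y * g ∈ (P : Subgroup M) := by
  have gP := good_of_check X vP chP_low chP_up
  have hc := (gP.card X KM).trans chP_size
  refine ⟨Sylow.ofCard _ (by rw [hc, card_M]; decide +kernel), fun g => ?_⟩
  obtain ⟨p, r, h⟩ := goodM.forall_of_allElts X
    (P := fun p => force (c.inv p) fun q => anyL (fun y => memb c chP (conjc c q y)) L)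
    (by decide +kernel) g (Subgroup.mem_top g)
  rw [force_eq, anyL_iff] at h
  obtain ⟨y, hy, h⟩ := h
  have h1 : allL (fun y => band (memb c chP y) (bnot (eqc c y c.one))) L = true := by decide +kernel
  rw [allL_iff] at h1
  have h2 := h1 y hy
  simp only [band_eq_true, bnot_eq_true] at h2
  obtain ⟨a, ha, ra⟩ := gP.in_of_memb X h2.1
  refine ⟨a, ha, fun e => h2.2 ((ra.eqc_one_iff X KM).2 e), ?_⟩
  have := gP.mem_of_memb X h ((r.inv X).conj X ra)
  rwa [inv_inv] at this

theorem card_aut : Nat.card (MulAut (alternatingGroup (Fin 6))) = 1440 := by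
  obtain ⟨e⟩ := Cfsg.Agent.S0254.result (F := H74.F9) rfl
  haveI : Fact (Nat.Prime 3) := ⟨Nat.prime_three⟩
  have h := Cfsg.Agent.S0813.result (F := H74.F9) 3 2 (by norm_num) rfl 2 le_rfl (by norm_num)
  rw [H10.card_PGL_eq_card_SL, H10.card_SL_two, Nat.card_eq_fintype_card (α := H74.F9),
    H74.F9.card_eq] at h
  rw [← Nat.card_congr (MulAut.congr e).toEquiv, h]
  norm_num

theorem exists_equiv_aut {G A : Type*} [Group G] [Finite G] [Group A] [Finite A] (N : Subgroup G)
    [N.Normal] (e : N ≃* A) (hC : Subgroup.centralizer (N : Set G) = ⊥)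
    (h : Nat.card (MulAut A) ≤ Nat.card G) : Nonempty (G ≃* MulAut A) := by
  have inj : Function.Injective (MulAut.conjNormal : G →* MulAut N) := by
    rw [injective_iff_map_eq_one]
    intro g hg
    rw [← Subgroup.mem_bot, ← hC]
    intro n hn
    have := congrArg (fun φ : MulAut N => ((φ ⟨n, hn⟩ : N) : G)) hg
    simp only [MulAut.conjNormal_apply, MulAut.one_apply] at this
    rw [mul_inv_eq_iff_eq_mul] at this
    exact this.symm
  let f : G →* MulAut A := (MulAut.congr e).toMonoidHom.comp MulAut.conjNormal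
  have finj : Function.Injective f := (MulAut.congr e).injective.comp inj
  exact ⟨MulEquiv.ofBijective f (finj.bijective_of_nat_card_le h)⟩

theorem meet_of_key {G : Type*} [Group G] [Finite G] {P : Sylow 2 G}
    (h : ∀ g : G, ∃ y ∈ (P : Subgroup G), y ≠ 1 ∧ g⁻¹ * y * g ∈ (P : Subgroup G))
    (H : Sylow 2 G) (x : G) : (H : Subgroup G) ⊓ MulAut.conj x • (H : Subgroup G) ≠ ⊥ := by
  obtain ⟨a, rfl⟩ := MulAction.exists_smul_eq G P H
  obtain ⟨y, hy, h1, h2⟩ := h (a⁻¹ * x * a)
  rw [Ne, Subgroup.eq_bot_iff_forall]
  intro hc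
  have := hc (a * y * a⁻¹) ⟨?_, ?_⟩
  · exact h1 (by simpa using this)
  · rw [Sylow.coe_subgroup_smul]
    exact Subgroup.smul_mem_pointwise_smul y (MulAut.conj a) _ hy
  · rw [Sylow.coe_subgroup_smul]
    have := Subgroup.smul_mem_pointwise_smul _ (MulAut.conj x) _
      (Subgroup.smul_mem_pointwise_smul _ (MulAut.conj a) _ h2)
    have e : MulAut.conj x • MulAut.conj a • ((a⁻¹ * x * a)⁻¹ * y * (a⁻¹ * x * a)) = a * y * a⁻¹ := by
      simp only [MulAut.smul_def, MulAut.conj_apply]
      group
    rw [e] at this
    exact this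

/-- every group between `A₆` and its automorphism group of index four is the model -/
theorem equiv_model {G : Type*} [Group G] [Finite G] (N : Subgroup G) [N.Normal]
    (e : N ≃* alternatingGroup (Fin 6)) (hidx : N.index = 4)
    (hC : Subgroup.centralizer (N : Set G) = ⊥) : Nonempty (M ≃* G) := by
  have hG : Nat.card G = 1440 := by
    rw [← N.card_mul_index, hidx, Nat.card_congr e.toEquiv, card_A6]
  obtain ⟨f⟩ := exists_equiv_aut N e hC (by rw [card_aut, hG])
  obtain ⟨j⟩ := equivJ
  obtain ⟨g⟩ := exists_equiv_aut J j centJ (by rw [card_aut, card_M])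
  exact ⟨g.trans f.symm⟩

end H30.AutA6
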