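import Mathlib
import Cfsg.Agent.Lib.ClChev.ClsD

/-! Sylow 2-subgroups in extensions of degree two of groups of Lie type over the field with two
elements meet pairwise. -/

set_option autoImplicit false

open scoped Pointwise

namespace H30.SylMeet

open H13 H13.BN H62.St H62.LB H38

theorem fix_or_opp {p : ℕ} [Fact p.Prime] {N : Type*} [Group N] [Finite N] (S : SBN p N) (g : N) :
    (∃ y ∈ S.U, y ≠ 1 ∧ g⁻¹ * y * g ∈ S.P.B) ∨ g ∈ cell S.P S.w₀ := by
  obtain ⟨w, hw⟩ := exists_mem_cell (P := S.P) g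
  by_cases h : ∀ s, len (gen S.P) (gen S.P s * w) < len (gen S.P) w
  · exact Or.inr (S.eq_w₀ h ▸ hw)
  · left
    push Not at h
    obtain ⟨s, hs⟩ := h
    have hne := (invGen S.P).len_simple_mul_ne (exchange S.P) s w
    obtain ⟨x, hx, hx'⟩ := S.exists_X s
    obtain ⟨u, hu, hb⟩ := S.exists_U (rep w).2 (rep_mem_cell w) hw
    have h1 := S.X_fix (lt_of_le_of_ne hs hne.symm) (rep w).2 (rep_mem_cell w) hx
    refine ⟨u * x * u⁻¹, mul_mem (mul_mem hu (S.X_le_U s hx)) (inv_mem hu), fun e => hx' ?_, ?_⟩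
    · have : x = 1 := by simpa using e
      exact this ▸ one_mem _
    · have := mul_mem (mul_mem (inv_mem hb) h1) hb
      convert this using 1
      group

theorem meet {G : Type*} [Group G] [Finite G] (N : Subgroup G) [N.Normal] (hidx : N.index = 2)
    (S : SBN 2 N) (hB : S.P.B ≤ S.U) (H : Sylow 2 G) (x : G) :
    (H : Subgroup G) ⊓ MulAut.conj x • (H : Subgroup G) ≠ ⊥ := by
  obtain ⟨P, hP⟩ := (S.split.pgp.map N.subtype).exists_le_sylow
  have hU : ∀ y : N, y ∈ S.U ↔ (y : G) ∈ P := by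
    intro y
    refine ⟨fun hy => hP ⟨y, hy, rfl⟩, fun hy => ?_⟩
    have e := (S.split.pgp.toSylow S.split.not_dvd_index).is_maximal'
      (P.isPGroup'.comap_of_injective N.subtype N.subtype_injective) (fun z hz => hP ⟨z, hz, rfl⟩)
    have hy' : y ∈ (P : Subgroup G).comap N.subtype := hy
    rw [e] at hy'
    exact hy'
  obtain ⟨h, hh, hN⟩ : ∃ h ∈ (P : Subgroup G), h ∉ N := by
    by_contra hc
    push Not at hc
    have := Subgroup.index_dvd_of_le (show (P : Subgroup G) ≤ N from hc)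
    rw [hidx] at this
    exact P.not_dvd_index this
  have key : ∀ g : N, ∃ y ∈ (P : Subgroup G), y ≠ 1 ∧ (g : G)⁻¹ * y * g ∈ (P : Subgroup G) := by
    intro g
    rcases fix_or_opp S g with ⟨y, hy, h1, h2⟩ | h0
    · exact ⟨y, (hU y).1 hy, fun e => h1 (Subtype.ext e), (hU _).1 (hB h2)⟩
    let g' : N := ⟨h * g * h⁻¹, ‹N.Normal›.conj_mem _ g.2 h⟩
    rcases fix_or_opp S g' with ⟨y, hy, h1, h2⟩ | h0'
    · refine ⟨h⁻¹ * y * h, mul_mem (mul_mem (inv_mem hh) ((hU y).1 hy)) hh, fun e => h1 ?_, ?_⟩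
      · have := congrArg (fun z => h * z * h⁻¹) e
        exact Subtype.ext (by simpa [mul_assoc] using this)
      · have := mul_mem (mul_mem (inv_mem hh) ((hU _).1 (hB h2))) hh
        convert this using 1
        simp only [g', Subgroup.coe_mul, Subgroup.coe_inv]
        group
    obtain ⟨u, hu, hb⟩ := S.exists_U S.n₀_mem S.n₀_cell h0
    obtain ⟨u', hu', hb'⟩ := S.exists_U S.n₀_mem S.n₀_cell h0'
    have a1 := (hU _).1 hu
    have a2 := (hU _).1 hu'
    have a3 : _ ∈ (P : Subgroup G) := (hU _).1 (hB (mul_mem (inv_mem hb) hb'))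
    refine ⟨u * (u' : G)⁻¹ * h, mul_mem (mul_mem a1 (inv_mem a2)) hh, fun e => hN ?_, ?_⟩
    · have : h = u' * (u : G)⁻¹ := by
        rw [mul_eq_one_iff_eq_inv'] at e
        simpa using e
      rw [this]
      exact mul_mem u'.2 (inv_mem u.2)
    · have := mul_mem a3 hh
      convert this using 1
      simp only [g', Subgroup.coe_mul, Subgroup.coe_inv]
      group
  have key2 : ∀ g : G, ∃ y ∈ (P : Subgroup G), y ≠ 1 ∧ g⁻¹ * y * g ∈ (P : Subgroup G) := by
    intro g
    by_cases hg : g ∈ N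
    · exact key ⟨g, hg⟩
    · have : g * h ∈ N := (Subgroup.mul_mem_iff_of_index_two hidx).2 (by simp [hg, hN])
      obtain ⟨y, hy, h1, h2⟩ := key ⟨_, this⟩
      refine ⟨y, hy, h1, ?_⟩
      have := mul_mem (mul_mem hh h2) (inv_mem hh)
      convert this using 1
      group
  obtain ⟨a, rfl⟩ := MulAction.exists_smul_eq G P H
  obtain ⟨y, hy, h1, h2⟩ := key2 (a⁻¹ * x * a)
  rw [Ne, Subgroup.eq_bot_iff_forall]
  intro hc
  have := hc (a * y * a⁻¹) ⟨?_, ?_⟩
  · exact h1 (by simpa using this)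
  · rw [Sylow.coe_subgroup_smul]
    exact Subgroup.smul_mem_pointwise_smul y (MulAut.conj a) _ hy
  · rw [Sylow.coe_subgroup_smul]
    have := Subgroup.smul_mem_pointwise_smul _ (MulAut.conj x) _
      (Subgroup.smul_mem_pointwise_smul _ (MulAut.conj a) _ h2)
    have e : MulAut.conj x • MulAut.conj a • ((a⁻¹ * x * a)⁻¹ * y * (a⁻¹ * x * a)) = a * y * a⁻¹ := by
      simp only [MulAut.smul_def, MulAut.conj_apply]
      group
    rw [e] at this
    exact this

theorem B_le_U {ι l : Type} [Fintype l] [DecidableEq l] [Finite ι] {R : RS ι l} {K : Type*} [Field K]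
    [Finite K] [CharP K 2] {G : Type*} [Group G] {E : Elts R K G} (hK : ∀ c : K, c ≠ 0 → c = 1)
    (hF : E.Faith) (hG : E.Gp = ⊤) (h3 : E.R3) :
    (sbnElts 2 hF hG h3).P.B ≤ (sbnElts 2 hF hG h3).U := by
  rw [sbnElts_U]
  intro g hg
  have hg' : g ∈ E.B := hg
  refine (sup_le le_rfl ?_ : E.U ⊔ E.H ≤ E.U) hg'
  refine (Subgroup.closure_le _).2 ?_
  rintro _ ⟨r, c, hc, rfl⟩
  rw [hK c hc, E.h_one]
  exact one_mem _

theorem congr_le {G G' : Type*} [Group G] [Finite G] [Group G'] (S : SBN 2 G) (e : G ≃* G')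
    (h : S.P.B ≤ S.U) : (S.congr e).P.B ≤ (S.congr e).U :=
  Subgroup.map_mono h

end H30.SylMeet
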